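import Mathlib

/-!
# The projective line: triples of points

`GL₂(F)` maps the standard triple `(∞, 0, 1)` to any triple of distinct points, and an element of
`GL₂(F)` fixing three distinct points is scalar.
-/

set_option autoImplicit false

namespace Cfsg.Agent.Lib.Helper89.P1

open Projectivization Matrix
open scoped MatrixGroups LinearAlgebra.Projectivization

variable {F : Type*} [Field F]

/-- `2 × 2` determinant of two vectors. -/
def dt (u v : Fin 2 → F) : F := u 0 * v 1 - u 1 * v 0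

lemma mk_eq_iff {u v : Fin 2 → F} (hu : u ≠ 0) (hv : v ≠ 0) :
    Projectivization.mk F u hu = Projectivization.mk F v hv ↔ dt u v = 0 := by
  rw [mk_eq_mk_iff']
  constructor
  · rintro ⟨a, rfl⟩
    simp only [dt, Pi.smul_apply, smul_eq_mul]
    ring
  · intro h
    unfold dt at h
    by_cases h0 : v 0 = 0
    · have h1 : v 1 ≠ 0 := by
        intro h1
        apply hv
        ext i
        fin_cases i
        · exact h0
        · exact h1
      refine ⟨u 1 / v 1, ?_⟩
      ext i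
      fin_cases i
      · simp only [Fin.zero_eta, Pi.smul_apply, smul_eq_mul, h0, mul_zero]
        rw [h0, mul_zero, sub_zero] at h
        exact ((mul_eq_zero.mp h).resolve_right h1).symm
      · simp only [Fin.mk_one, Pi.smul_apply, smul_eq_mul]
        field_simp
    · refine ⟨u 0 / v 0, ?_⟩
      ext i
      fin_cases i
      · simp only [Fin.zero_eta, Pi.smul_apply, smul_eq_mul]
        field_simp
      · simp only [Fin.mk_one, Pi.smul_apply, smul_eq_mul]
        field_simp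
        linear_combination h

lemma e1_ne : (![1, 0] : Fin 2 → F) ≠ 0 := fun h => one_ne_zero (congrFun h 0)
lemma e2_ne : (![0, 1] : Fin 2 → F) ≠ 0 := fun h => one_ne_zero (congrFun h 1)
lemma e3_ne (t : F) : (![t, 1] : Fin 2 → F) ≠ 0 := fun h => one_ne_zero (congrFun h 1)

/-- the point `∞`. -/
def pInf : ℙ F (Fin 2 → F) := Projectivization.mk F ![1, 0] e1_ne
/-- the affine point `t`. -/
def pt (t : F) : ℙ F (Fin 2 → F) := Projectivization.mk F ![t, 1] (e3_ne t)

lemma pInf_ne_pt (t : F) : (pInf : ℙ F (Fin 2 → F)) ≠ pt t := by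
  unfold pInf pt
  rw [Ne, mk_eq_iff]
  simp [dt]

lemma pt_eq_iff {s t : F} : (pt s : ℙ F (Fin 2 → F)) = pt t ↔ s = t := by
  unfold pt
  rw [mk_eq_iff]
  simp [dt, sub_eq_zero]

/-- the triple `(∞, 0, t)`, `t ≠ 0`. -/
def triple (t : F) (ht : t ≠ 0) : Fin 3 ↪ ℙ F (Fin 2 → F) :=
  ⟨![pInf, pt 0, pt t], by
    intro i j h
    fin_cases i <;> fin_cases j <;> simp at h ⊢
    · exact pInf_ne_pt _ h
    · exact pInf_ne_pt _ h
    · exact pInf_ne_pt _ h.symm
    · exact ht (pt_eq_iff.mp h).symm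
    · exact pInf_ne_pt _ h.symm
    · exact ht (pt_eq_iff.mp h)⟩

@[simp] lemma triple_zero (t : F) (ht : t ≠ 0) : triple t ht 0 = pInf := rfl
@[simp] lemma triple_one (t : F) (ht : t ≠ 0) : triple t ht 1 = pt 0 := rfl
@[simp] lemma triple_two (t : F) (ht : t ≠ 0) : triple t ht 2 = pt t := rfl

/-- Vector form: three pairwise independent vectors are, up to scalars, the images of
`e₁, e₂, e₁ + e₂` under an invertible matrix. -/
lemma exists_matrix {u v w : Fin 2 → F} (huv : dt u v ≠ 0) (huw : dt u w ≠ 0) (hvw : dt v w ≠ 0) :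
    ∃ (A : Matrix (Fin 2) (Fin 2) F) (a b : F), A.det ≠ 0 ∧ a ≠ 0 ∧ b ≠ 0 ∧
      A *ᵥ ![1, 0] = a • u ∧ A *ᵥ ![0, 1] = b • v ∧ A *ᵥ ![1, 1] = w := by
  refine ⟨!![(-dt v w / dt u v) * u 0, (dt u w / dt u v) * v 0;
      (-dt v w / dt u v) * u 1, (dt u w / dt u v) * v 1], -dt v w / dt u v, dt u w / dt u v,
      ?_, ?_, ?_, ?_, ?_, ?_⟩
  · rw [Matrix.det_fin_two_of]
    have : -dt v w / dt u v * u 0 * (dt u w / dt u v * v 1)
        - dt u w / dt u v * v 0 * (-dt v w / dt u v * u 1)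
        = (-dt v w / dt u v) * (dt u w / dt u v) * dt u v := by
      simp only [dt]; ring
    rw [this]
    exact mul_ne_zero (mul_ne_zero (div_ne_zero (neg_ne_zero.mpr hvw) huv)
      (div_ne_zero huw huv)) huv
  · exact div_ne_zero (neg_ne_zero.mpr hvw) huv
  · exact div_ne_zero huw huv
  · ext i; fin_cases i <;> simp [Matrix.mulVec, dotProduct, Fin.sum_univ_two]
  · ext i; fin_cases i <;> simp [Matrix.mulVec, dotProduct, Fin.sum_univ_two]
  · ext i
    fin_cases i
    · simp only [Matrix.mulVec, dotProduct, Fin.sum_univ_two, Fin.zero_eta, Matrix.of_apply,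
        Matrix.cons_val_zero, Matrix.cons_val_one, mul_one]
      field_simp
      simp only [dt]; ring
    · simp only [Matrix.mulVec, dotProduct, Fin.sum_univ_two, Fin.mk_one, Matrix.of_apply,
        Matrix.cons_val_zero, Matrix.cons_val_one, mul_one]
      field_simp
      simp only [dt]; ring

lemma mk_smul_eq {u : Fin 2 → F} (hu : u ≠ 0) {a : F} (h : a • u ≠ 0) :
    Projectivization.mk F (a • u) h = Projectivization.mk F u hu := by
  rw [mk_eq_mk_iff']
  exact ⟨a, rfl⟩

/-- `GL₂(F)` maps `(∞, 0, 1)` to any triple of distinct points. -/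
lemma exists_GL (a b c : ℙ F (Fin 2 → F)) (hab : a ≠ b) (hac : a ≠ c) (hbc : b ≠ c) :
    ∃ g : GL (Fin 2) F, g • (pInf : ℙ F (Fin 2 → F)) = a ∧ g • (pt 0 : ℙ F (Fin 2 → F)) = b ∧
      g • (pt 1 : ℙ F (Fin 2 → F)) = c := by
  induction a using Projectivization.ind with | _ u hu =>
  induction b using Projectivization.ind with | _ v hv =>
  induction c using Projectivization.ind with | _ w hw =>
  rw [Ne, mk_eq_iff] at hab hac hbc
  obtain ⟨A, x, y, hA, hx, hy, h1, h2, h3⟩ := exists_matrix hab hac hbc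
  refine ⟨Matrix.GeneralLinearGroup.mkOfDetNeZero A hA, ?_, ?_, ?_⟩
  · unfold pInf
    rw [smul_mk]
    have : (Matrix.GeneralLinearGroup.mkOfDetNeZero A hA) • (![1, 0] : Fin 2 → F) = x • u := h1
    simp only [this]
    exact mk_smul_eq hu _
  · unfold pt
    rw [smul_mk]
    have : (Matrix.GeneralLinearGroup.mkOfDetNeZero A hA) • (![0, 1] : Fin 2 → F) = y • v := h2
    simp only [this]
    exact mk_smul_eq hv _
  · unfold pt
    rw [smul_mk]
    have : (Matrix.GeneralLinearGroup.mkOfDetNeZero A hA) • (![1, 1] : Fin 2 → F) = w := h3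
    simp only [this]


lemma GL_smul_pInf_eq_iff (g : GL (Fin 2) F) :
    g • (pInf : ℙ F (Fin 2 → F)) = pInf ↔ (g : Matrix (Fin 2) (Fin 2) F) 1 0 = 0 := by
  unfold pInf
  rw [smul_mk, mk_eq_iff]
  have : g • (![1, 0] : Fin 2 → F) = (g : Matrix (Fin 2) (Fin 2) F) *ᵥ ![1, 0] := rfl
  rw [this]
  simp [dt, Matrix.mulVec, dotProduct, Fin.sum_univ_two]

lemma GL_smul_pt_zero_eq_iff (g : GL (Fin 2) F) :
    g • (pt 0 : ℙ F (Fin 2 → F)) = pt 0 ↔ (g : Matrix (Fin 2) (Fin 2) F) 0 1 = 0 := by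
  unfold pt
  rw [smul_mk, mk_eq_iff]
  have : g • (![0, 1] : Fin 2 → F) = (g : Matrix (Fin 2) (Fin 2) F) *ᵥ ![0, 1] := rfl
  rw [this]
  simp [dt, Matrix.mulVec, dotProduct, Fin.sum_univ_two]

lemma GL_smul_pt_eq_iff (g : GL (Fin 2) F) (s t : F) :
    g • (pt s : ℙ F (Fin 2 → F)) = pt t ↔
      (g : Matrix (Fin 2) (Fin 2) F) 0 0 * s + (g : Matrix (Fin 2) (Fin 2) F) 0 1
        = ((g : Matrix (Fin 2) (Fin 2) F) 1 0 * s + (g : Matrix (Fin 2) (Fin 2) F) 1 1) * t := by
  unfold pt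
  rw [smul_mk, mk_eq_iff]
  have : g • (![s, 1] : Fin 2 → F) = (g : Matrix (Fin 2) (Fin 2) F) *ᵥ ![s, 1] := rfl
  rw [this]
  simp [dt, Matrix.mulVec, dotProduct, Fin.sum_univ_two, sub_eq_zero]

/-- An element of `GL₂(F)` fixing `∞, 0, 1` is central. -/
lemma mem_center_of_fix_std (g : GL (Fin 2) F) (h0 : g • (pInf : ℙ F (Fin 2 → F)) = pInf)
    (h1 : g • (pt 0 : ℙ F (Fin 2 → F)) = pt 0) (h2 : g • (pt 1 : ℙ F (Fin 2 → F)) = pt 1) :
    g ∈ Subgroup.center (GL (Fin 2) F) := by
  rw [GL_smul_pInf_eq_iff] at h0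
  rw [GL_smul_pt_zero_eq_iff] at h1
  rw [GL_smul_pt_eq_iff, h0, h1] at h2
  simp only [mul_one, add_zero, zero_add] at h2
  have hM : (g : Matrix (Fin 2) (Fin 2) F) = Matrix.scalar (Fin 2) ((g : Matrix (Fin 2) (Fin 2) F) 0 0) := by
    ext i j
    fin_cases i <;> fin_cases j <;> simp [h0, h1, h2]
  rw [Subgroup.mem_center_iff]
  intro x
  apply Units.ext
  rw [Units.val_mul, Units.val_mul, hM]
  exact (Matrix.scalar_commute _ (fun r' => Commute.all _ _) _).symm.eq

/-- An element of `GL₂(F)` fixing three distinct points is central. -/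
lemma mem_center_of_fix (g : GL (Fin 2) F) (a b c : ℙ F (Fin 2 → F)) (hab : a ≠ b) (hac : a ≠ c)
    (hbc : b ≠ c) (ha : g • a = a) (hb : g • b = b) (hc : g • c = c) :
    g ∈ Subgroup.center (GL (Fin 2) F) := by
  obtain ⟨x, rfl, rfl, rfl⟩ := exists_GL a b c hab hac hbc
  have key : x⁻¹ * g * x ∈ Subgroup.center (GL (Fin 2) F) := by
    apply mem_center_of_fix_std
    · rw [mul_smul, mul_smul, ha, inv_smul_smul]
    · rw [mul_smul, mul_smul, hb, inv_smul_smul]
    · rw [mul_smul, mul_smul, hc, inv_smul_smul]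
  have := (Subgroup.center (GL (Fin 2) F)).normal_of_characteristic.conj_mem _ key x
  simpa [mul_assoc] using this

end Cfsg.Agent.Lib.Helper89.P1
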