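import Mathlib
import Cfsg.Prelude.Def_Classical
import Cfsg.Agent.Lib.Helper89.SU32
import Cfsg.Agent.Lib.Helper89.WidthOne
import Cfsg.Agent.Lib.Helper5.SUCenter
import Cfsg.Agent.Lib.Helper5.Quaternion
import Cfsg.Agent.Lib.Lead.Cores
import Cfsg.Agent.S0282

/-!
# The structure `3² : Q₈` of `PSU_3(2)`
-/

set_option autoImplicit false

namespace Cfsg.Agent.Lib.Helper89.PSU32

/-- A group of order `8` and exponent `4` with at most one involution is quaternion. -/
theorem quaternion_of_card_eight {Q : Type*} [Group Q] (hc : Nat.card Q = 8) (z : Q)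
    (hz : ∀ w : Q, w * w = 1 → w = 1 ∨ w = z) (hexp : ∀ w : Q, w ^ 4 = 1) :
    Nonempty (Q ≃* QuaternionGroup 2) := by
  have : Finite Q := Nat.finite_of_card_ne_zero (by rw [hc]; norm_num)
  obtain ⟨a, ha1, haz⟩ : ∃ a : Q, a ≠ 1 ∧ a ≠ z := by
    by_contra hcon
    push Not at hcon
    have : Nat.card Q ≤ 2 := by
      have hsub : (Set.univ : Set Q) ⊆ {1, z} := by
        intro a _
        by_cases h : a = 1
        · simp [h]
        · simp [hcon a h]
      calc Nat.card Q = (Set.univ : Set Q).ncard := (Set.ncard_univ Q).symm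
        _ ≤ ({1, z} : Set Q).ncard := Set.ncard_le_ncard hsub (Set.toFinite _)
        _ ≤ 2 := Set.ncard_insert_le _ _ |>.trans (by simp)
    omega
  have sq : ∀ w : Q, w ≠ 1 → w ≠ z → w ^ 2 = z ∧ orderOf w = 4 := by
    intro w h1 h2
    have h3 : w * w ≠ 1 := fun h => (hz w h).elim h1 h2
    have h4 : (w * w) * (w * w) = 1 := by
      rw [← hexp w]; simp only [pow_succ, pow_zero, one_mul, mul_assoc]
    refine ⟨by rw [pow_two]; exact (hz _ h4).resolve_left h3, ?_⟩
    have := orderOf_eq_prime_pow (p := 2) (n := 1) (x := w) (by rwa [pow_one, pow_two])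
      (by norm_num; exact hexp w)
    simpa using this
  obtain ⟨ha2, hao⟩ := sq a ha1 haz
  obtain ⟨x, hx⟩ : ∃ x : Q, x ∉ Subgroup.zpowers a := by
    by_contra hcon
    push Not at hcon
    have : Subgroup.zpowers a = ⊤ := by
      rw [eq_top_iff]; intro x _; exact hcon x
    have h2 : Nat.card (Subgroup.zpowers a) = 4 := by rw [Nat.card_zpowers, hao]
    rw [this, Subgroup.card_top, hc] at h2
    omega
  have hzm : z ∈ Subgroup.zpowers a := by
    rw [← ha2]; exact Subgroup.pow_mem _ (Subgroup.mem_zpowers a) 2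
  have hx1 : x ≠ 1 := fun h => hx (h ▸ Subgroup.one_mem _)
  have hxz : x ≠ z := fun h => hx (h ▸ hzm)
  obtain ⟨hx2, -⟩ := sq x hx1 hxz
  have hax1 : a * x ≠ 1 := by
    intro h
    apply hx
    have : x = a⁻¹ := (eq_inv_of_mul_eq_one_right h)
    rw [this]
    exact Subgroup.inv_mem _ (Subgroup.mem_zpowers a)
  have haxz : a * x ≠ z := by
    intro h
    apply hx
    have : x = a := by
      have h2 : a * x = a * a := by rw [h, ← ha2, pow_two]
      exact mul_left_cancel h2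
    rw [this]
    exact Subgroup.mem_zpowers a
  obtain ⟨hax2, -⟩ := sq (a * x) hax1 haxz
  have h5 : a * x * a = x := by
    have : (a * x * a) * x = x * x := by
      rw [← pow_two x, hx2, ← hax2, pow_two]; simp only [mul_assoc]
    exact mul_right_cancel this
  refine Cfsg.Agent.Lib.Helper5.nonempty_mulEquiv_quaternionGroup a x (by rw [hao]) (by rw [hx2, ha2])
    ?_ hx (by rw [hc])
  have h6 : a * x = x * a⁻¹ := by
    rw [eq_mul_inv_iff_mul_eq]; exact h5
  rw [mul_assoc, h6, inv_mul_cancel_left]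

/-- The abstract hypotheses. -/
structure Hyp (H : Type*) [Group H] : Prop where
  card : Nat.card H = 72
  br : ∀ a b : H, a * a = 1 → a ≠ 1 → b * b = 1 → b ≠ 1 → a * b * a = b * a * b
  nine : 9 ≤ Nat.card {x : H // x * x = 1 ∧ x ≠ 1}
  exp : ∀ x : H, x ^ 8 = 1 → x ^ 4 = 1

namespace Hyp

variable {H : Type*} [Group H]

theorem finite (h : Hyp H) : Finite H := Nat.finite_of_card_ne_zero (by rw [h.card]; norm_num)

theorem mul_mem (h : Hyp H) {a b : H} (ha : a * a = 1) (ha1 : a ≠ 1) (hb : b * b = 1)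
    (hb1 : b ≠ 1) : a * b ∈ Cfsg.pCore 3 H := by
  have := h.finite
  refine Cfsg.Agent.Lib.Helper89.mul_mem_pCore_three (D := {x : H | x * x = 1 ∧ x ≠ 1})
    (fun p hp => hp.1) ?_ (fun p hp q hq => h.br p q hp.1 hp.2 hq.1 hq.2) ⟨ha, ha1⟩ ⟨hb, hb1⟩
  intro g p hp
  refine ⟨?_, ?_⟩
  · have : g * p * g⁻¹ * (g * p * g⁻¹) = g * (p * p) * g⁻¹ := by group
    rw [this, hp.1, mul_one, mul_inv_cancel]
  · intro hh
    apply hp.2
    have : p = g⁻¹ * (g * p * g⁻¹) * g := by group
    rw [this, hh, mul_one, inv_mul_cancel]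

theorem exists_invo (h : Hyp H) : ∃ d : H, d * d = 1 ∧ d ≠ 1 := by
  have h9 := h.nine
  have : Nonempty {x : H // x * x = 1 ∧ x ≠ 1} := by
    by_contra hcon
    rw [not_nonempty_iff] at hcon
    rw [Nat.card_of_isEmpty] at h9
    omega
  obtain ⟨d⟩ := this
  exact ⟨d.1, d.2⟩

theorem card_le (h : Hyp H) : Nat.card (Cfsg.pCore 3 H) ≤ 9 := by
  have := h.finite
  have : Fact (Nat.Prime 3) := ⟨Nat.prime_three⟩
  obtain ⟨k, hk⟩ := (IsPGroup.iff_card).1 (Cfsg.Agent.Lib.Lead.pCore_isPGroup 3 H)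
  have hd : Nat.card (Cfsg.pCore 3 H) ∣ 72 := h.card ▸ Subgroup.card_subgroup_dvd_card _
  rw [hk] at hd ⊢
  by_contra hcon
  have hk3 : 3 ≤ k := by
    by_contra h2
    have : k ≤ 2 := by omega
    have := Nat.pow_le_pow_right (n := 3) (by norm_num) this
    omega
  have : 3 ^ 3 ∣ 72 := (pow_dvd_pow 3 hk3).trans hd
  omega

/-- The map `e ↦ d e` from the involutions to `O_3(H)`. -/
def toCore (h : Hyp H) (d : H) (hd : d * d = 1) (hd1 : d ≠ 1) :
    {x : H // x * x = 1 ∧ x ≠ 1} → Cfsg.pCore 3 H :=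
  fun e => ⟨d * e.1, h.mul_mem hd hd1 e.2.1 e.2.2⟩

theorem toCore_injective (h : Hyp H) (d : H) (hd : d * d = 1) (hd1 : d ≠ 1) :
    Function.Injective (h.toCore d hd hd1) := by
  intro e e' hee
  have := congrArg Subtype.val hee
  exact Subtype.ext (mul_left_cancel this)

theorem card_core (h : Hyp H) : Nat.card (Cfsg.pCore 3 H) = 9 := by
  have := h.finite
  obtain ⟨d, hd, hd1⟩ := h.exists_invo
  have := Nat.card_le_card_of_injective _ (h.toCore_injective d hd hd1)
  have h1 := h.nine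
  have h2 := h.card_le
  omega

theorem pow_three (h : Hyp H) {x : H} (hx : x ∈ Cfsg.pCore 3 H) : x ^ 3 = 1 := by
  have := h.finite
  obtain ⟨d, hd, hd1⟩ := h.exists_invo
  have hinj := h.toCore_injective d hd hd1
  have hle := Nat.card_le_card_of_injective _ hinj
  have h1 := h.nine
  have h2 := h.card_le
  have hbij : Function.Bijective (h.toCore d hd hd1) := by
    rw [Nat.bijective_iff_injective_and_card]
    exact ⟨hinj, by omega⟩
  obtain ⟨e, he⟩ := hbij.2 ⟨x, hx⟩
  have hx' : x = d * e.1 := (congrArg Subtype.val he).symm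
  rw [hx']
  calc (d * e.1) ^ 3 = (d * e.1 * d) * (e.1 * d * e.1) := by
        simp only [pow_succ, pow_zero, one_mul, mul_assoc]
    _ = (d * e.1 * d) * (d * e.1 * d) := by rw [h.br d e.1 hd hd1 e.2.1 e.2.2]
    _ = d * (e.1 * (d * d) * e.1) * d := by simp only [mul_assoc]
    _ = 1 := by rw [hd, mul_one, e.2.1, mul_one, hd]

theorem card_quot (h : Hyp H) : Nat.card (H ⧸ Cfsg.pCore 3 H) = 8 := by
  have := Subgroup.card_eq_card_quotient_mul_card_subgroup (Cfsg.pCore 3 H)
  rw [h.card, h.card_core] at this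
  omega

theorem pow_nine_core (h : Hyp H) {x : H} (hx : x ∈ Cfsg.pCore 3 H) : x ^ 9 = 1 := by
  have : x ^ 9 = (x ^ 3) ^ 3 := by rw [← pow_mul]
  rw [this, h.pow_three hx, one_pow]

theorem quot (h : Hyp H) : Nonempty (H ⧸ Cfsg.pCore 3 H ≃* QuaternionGroup 2) := by
  have := h.finite
  obtain ⟨d, hd, hd1⟩ := h.exists_invo
  have h8 : ∀ w : H ⧸ Cfsg.pCore 3 H, w ^ 8 = 1 := by
    intro w
    rw [← h.card_quot]
    exact pow_card_eq_one'
  refine quaternion_of_card_eight h.card_quot (QuotientGroup.mk d) ?_ ?_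
  · intro w hw
    obtain ⟨g, rfl⟩ := QuotientGroup.mk_surjective w
    have hg : g * g ∈ Cfsg.pCore 3 H := by
      rw [← QuotientGroup.eq_one_iff]; exact hw
    have hg9 : (QuotientGroup.mk (g ^ 9) : H ⧸ Cfsg.pCore 3 H) = QuotientGroup.mk g := by
      rw [QuotientGroup.mk_pow, pow_succ, h8, one_mul]
    have hs : g ^ 9 * g ^ 9 = 1 := by
      have : g ^ 9 * g ^ 9 = (g * g) ^ 9 := by
        rw [← pow_two, ← pow_two, ← pow_mul, ← pow_mul]
      rw [this, h.pow_nine_core hg]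
    by_cases h1 : g ^ 9 = 1
    · left
      rw [← hg9, h1]; rfl
    · right
      rw [← hg9]
      have := h.mul_mem hd hd1 hs h1
      rw [eq_comm, QuotientGroup.eq]
      have hdi : d⁻¹ = d := inv_eq_of_mul_eq_one_left hd
      rwa [hdi]
  · intro w
    obtain ⟨g, rfl⟩ := QuotientGroup.mk_surjective w
    have hg : g ^ 8 ∈ Cfsg.pCore 3 H := by
      rw [← QuotientGroup.eq_one_iff, QuotientGroup.mk_pow]; exact h8 _
    have hg9 : (QuotientGroup.mk (g ^ 9) : H ⧸ Cfsg.pCore 3 H) = QuotientGroup.mk g := by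
      rw [QuotientGroup.mk_pow, pow_succ, h8, one_mul]
    have hs : (g ^ 9) ^ 8 = 1 := by
      rw [← pow_mul, mul_comm, pow_mul, h.pow_nine_core hg]
    have := h.exp _ hs
    rw [← hg9, ← QuotientGroup.mk_pow, this]; rfl

/-- The subgroup lattice is not complemented. -/
theorem not_complemented (h : Hyp H) : ¬ ComplementedLattice (Subgroup H) := by
  have := h.finite
  intro hcl
  obtain ⟨d, hd, hd1⟩ := h.exists_invo
  obtain ⟨X, hX⟩ := hcl.exists_isCompl (Cfsg.pCore 3 H ⊔ Subgroup.zpowers d)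
  have hXbot : X = ⊥ := by
    by_contra hne
    have hcard : Nat.card X ≠ 1 := by
      intro h1
      exact hne (Subgroup.card_eq_one.1 h1)
    obtain ⟨p, hp, hpd⟩ := Nat.exists_prime_and_dvd hcard
    have : Fact p.Prime := ⟨hp⟩
    obtain ⟨x, hx⟩ := exists_prime_orderOf_dvd_card' p hpd
    have hx1 : (x : H) ≠ 1 := by
      intro h1
      have : x = 1 := Subtype.ext h1
      rw [this, orderOf_one] at hx
      exact hp.one_lt.ne hx
    have hxp : (x : H) ^ p = 1 := by
      have := pow_orderOf_eq_one x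
      rw [hx] at this
      exact_mod_cast congrArg Subtype.val this
    have hp72 : p ∣ 72 := by
      rw [← h.card]
      exact hpd.trans (Subgroup.card_subgroup_dvd_card _)
    have hp23 : p = 2 ∨ p = 3 := by
      have : (72 : ℕ) = 2 ^ 3 * 3 ^ 2 := by norm_num
      rw [this] at hp72
      rcases (Nat.Prime.dvd_mul hp).1 hp72 with h2 | h2
      · left; exact (Nat.prime_dvd_prime_iff_eq hp Nat.prime_two).1 (hp.dvd_of_dvd_pow h2)
      · right; exact (Nat.prime_dvd_prime_iff_eq hp Nat.prime_three).1 (hp.dvd_of_dvd_pow h2)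
    have hmem : (x : H) ∈ Cfsg.pCore 3 H ⊔ Subgroup.zpowers d := by
      rcases hp23 with rfl | rfl
      · have hxx : (x : H) * x = 1 := by rw [← pow_two]; exact hxp
        have h1 := h.mul_mem hxx hx1 hd hd1
        have h2 : (x : H) = (x * d) * d := by rw [mul_assoc, hd, mul_one]
        rw [h2]
        exact Subgroup.mul_mem_sup h1 (Subgroup.mem_zpowers d)
      · have : (QuotientGroup.mk (x : H) : H ⧸ Cfsg.pCore 3 H) = 1 := by
          have h3 : (QuotientGroup.mk (x : H) : H ⧸ Cfsg.pCore 3 H) ^ 3 = 1 := by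
            rw [← QuotientGroup.mk_pow, hxp]; rfl
          have h8 : (QuotientGroup.mk (x : H) : H ⧸ Cfsg.pCore 3 H) ^ 8 = 1 := by
            rw [← h.card_quot]
            exact pow_card_eq_one'
          calc (QuotientGroup.mk (x : H) : H ⧸ Cfsg.pCore 3 H)
              = ((QuotientGroup.mk (x : H) : H ⧸ Cfsg.pCore 3 H) ^ 3) ^ 3 *
                ((QuotientGroup.mk (x : H) : H ⧸ Cfsg.pCore 3 H) ^ 8)⁻¹ := by
                rw [← pow_mul, eq_mul_inv_iff_mul_eq, ← pow_succ']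
            _ = 1 := by rw [h3, h8]; simp
        exact Subgroup.mem_sup_left ((QuotientGroup.eq_one_iff _).1 this)
    have : (x : H) ∈ (Cfsg.pCore 3 H ⊔ Subgroup.zpowers d) ⊓ X := ⟨hmem, x.2⟩
    rw [hX.inf_eq_bot] at this
    exact hx1 (Subgroup.mem_bot.1 this)
  have htop : Cfsg.pCore 3 H ⊔ Subgroup.zpowers d = ⊤ := by
    have := hX.sup_eq_top
    rwa [hXbot, sup_bot_eq] at this
  have hmap := congrArg (Subgroup.map (QuotientGroup.mk' (Cfsg.pCore 3 H))) htop
  rw [Subgroup.map_sup, QuotientGroup.map_mk'_self, bot_sup_eq, MonoidHom.map_zpowers,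
    Subgroup.map_top_of_surjective _ (QuotientGroup.mk'_surjective _)] at hmap
  have hc := congrArg (fun K : Subgroup (H ⧸ Cfsg.pCore 3 H) => Nat.card K) hmap
  simp only [Nat.card_zpowers, Subgroup.card_top, h.card_quot] at hc
  have h2 : orderOf ((QuotientGroup.mk' (Cfsg.pCore 3 H)) d) ≤ 2 := by
    apply orderOf_le_of_pow_eq_one (by norm_num)
    rw [← map_pow, pow_two, hd, map_one]
  omega

end Hyp


section concrete

open Cfsg.Agent.Lib.Helper27 Cfsg.Agent.Lib.Helper89.SU32 Cfsg.Agent.Lib.Helper5 Matrix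

set_option maxRecDepth 100000 in
theorem stage3 : ∀ (p q : Fin 3) (x y : H4), x ≠ 0 → y ≠ 0 → ∀ i j : Fin 3,
    pr (Matrix.of (pr (swp p x) (swp q y))) (swp p x) i j =
    pr (Matrix.of (pr (swp q y) (swp p x))) (swp q y) i j := by
  decide

theorem braid4 (T S : Matrix (Fin 3) (Fin 3) H4) (hT : ∀ i j, T j i = T i j * T i j)
    (hS : ∀ i j, S j i = S i j * S i j) (hT2 : T * T = 1) (hS2 : S * S = 1)
    (hT1 : T ≠ 1) (hS1 : S ≠ 1) : T * S * T = S * T * S := by
  obtain ⟨p, x, hx, rfl⟩ := (one_or_swp T hT hT2).resolve_left hT1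
  obtain ⟨q, y, hy, rfl⟩ := (one_or_swp S hS hS2).resolve_left hS1
  have e : ∀ A B : Matrix (Fin 3) (Fin 3) H4, A * B = Matrix.of (pr A B) := by
    intro A B; ext i j; exact mul_eq_pr A B i j
  ext i j
  rw [mul_eq_pr, mul_eq_pr, e, e]
  exact stage3 p q x y hx hy i j

variable {F : Type*} [Field F] [Fintype F]

theorem braidF (hF : Fintype.card F = 4)
    (T S : Matrix (Fin 3) (Fin 3) F) (hT : ∀ i j, T j i = T i j ^ 2)
    (hS : ∀ i j, S j i = S i j ^ 2) (hT2 : T * T = 1) (hS2 : S * S = 1)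
    (hT1 : T ≠ 1) (hS1 : S ≠ 1) : T * S * T = S * T * S := by
  let ρ : F ≃+* H4 := FiniteField.ringEquivOfCardEq (by rw [hF]; rfl)
  have hinj : Function.Injective (fun M : Matrix (Fin 3) (Fin 3) F => M.map ρ) :=
    Matrix.map_injective ρ.injective
  have hmul : ∀ A B : Matrix (Fin 3) (Fin 3) F, (A * B).map ρ = A.map ρ * B.map ρ := fun A B =>
    Matrix.map_mul (f := ρ.toRingHom)
  have hone : (1 : Matrix (Fin 3) (Fin 3) F).map ρ = 1 := by
    simp
  apply hinj
  show (T * S * T).map ρ = (S * T * S).map ρ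
  rw [hmul, hmul, hmul, hmul]
  apply braid4
  · intro i j
    simp only [Matrix.map_apply]
    rw [hT i j, map_pow, pow_two]
  · intro i j
    simp only [Matrix.map_apply]
    rw [hS i j, map_pow, pow_two]
  · rw [← hmul, hT2, hone]
  · rw [← hmul, hS2, hone]
  · intro h
    exact hT1 (hinj (h.trans hone.symm))
  · intro h
    exact hS1 (hinj (h.trans hone.symm))

theorem braidSU (hF : Fintype.card F = 4)
    {t s : ↥(Cfsg.SU 3 F 2)} (ht : t * t = 1) (hs : s * s = 1) (ht1 : t ≠ 1)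
    (hs1 : s ≠ 1) : t * s * t = s * t * s := by
  have c : ∀ {a b : ↥(Cfsg.SU 3 F 2)}, a = b →
      ((a : Matrix.SpecialLinearGroup (Fin 3) F) : Matrix (Fin 3) (Fin 3) F) =
      ((b : Matrix.SpecialLinearGroup (Fin 3) F) : Matrix (Fin 3) (Fin 3) F) := fun h => by rw [h]
  have c' : ∀ {a b : ↥(Cfsg.SU 3 F 2)},
      ((a : Matrix.SpecialLinearGroup (Fin 3) F) : Matrix (Fin 3) (Fin 3) F) =
      ((b : Matrix.SpecialLinearGroup (Fin 3) F) : Matrix (Fin 3) (Fin 3) F) → a = b :=
    fun h => Subtype.ext (Subtype.ext h)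
  apply c'
  have := braidF hF t.1.1 s.1.1 (hermitian_of_sq t.2 (congrArg Subtype.val ht))
    (hermitian_of_sq s.2 (congrArg Subtype.val hs)) (by simpa using c ht) (by simpa using c hs)
    (by intro h; exact ht1 (c' (by simpa using h))) (by intro h; exact hs1 (c' (by simpa using h)))
  simpa using this

theorem det_swp (p : Fin 3) (x : H4) (hx : x ≠ 0) : (swp p x).det = 1 := by
  rw [Matrix.det_fin_three]
  revert p x
  decide

set_option maxRecDepth 100000 in
theorem stage5 : ∀ (p : Fin 3) (x : H4), x ≠ 0 → ∀ i j : Fin 3,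
    pr (swp p x)ᵀ ((swp p x).map (· ^ 2)) i j = if i = j then 1 else 0 := by
  decide

theorem unitary_swp (p : Fin 3) (x : H4) (hx : x ≠ 0) :
    (swp p x)ᵀ * (swp p x).map (· ^ 2) = 1 := by
  ext i j
  rw [mul_eq_pr, stage5 p x hx, Matrix.one_apply]

set_option maxRecDepth 100000 in
theorem stage6 : ∀ (p : Fin 3) (x : H4), x ≠ 0 → ∀ i j : Fin 3,
    pr (swp p x) (swp p x) i j = if i = j then 1 else 0 := by
  decide

theorem sq_swp (p : Fin 3) (x : H4) (hx : x ≠ 0) : swp p x * swp p x = 1 := by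
  ext i j
  rw [mul_eq_pr, stage6 p x hx, Matrix.one_apply]

/-- Entry of a matrix. -/
def ent (M : Matrix (Fin 3) (Fin 3) H4) (i j : Fin 3) : H4 := M i j

set_option maxRecDepth 100000 in
theorem stage7 : ∀ (p q : Fin 3) (x y : H4), x ≠ 0 → y ≠ 0 →
    (∀ i j : Fin 3, ent (swp p x) i j = ent (swp q y) i j) → p = q ∧ x = y := by
  decide

set_option maxRecDepth 100000 in
theorem stage8 : ∀ (p : Fin 3) (x : H4), x ≠ 0 →
    ¬ (∀ i j : Fin 3, ent (swp p x) i j = if i = j then 1 else 0) := by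
  decide

/-- An isomorphism of the concrete field with `F`. -/
noncomputable def rho (hF : Fintype.card F = 4) : H4 ≃+* F :=
  FiniteField.ringEquivOfCardEq (by rw [hF]; rfl)

/-- The nine involutions of `SU_3(2)`. -/
noncomputable def inv9 (hF : Fintype.card F = 4) (i : Fin 3 × {x : H4 // x ≠ 0}) :
    ↥(Cfsg.SU 3 F 2) :=
  mkSU ((swp i.1 i.2.1).map (rho hF))
    (by
      have := (rho hF).toRingHom.map_det (swp i.1 i.2.1)
      rw [det_swp _ _ i.2.2, map_one] at this
      exact this.symm)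
    ((preserves_hermForm_iff (q := 2) (by rw [hF]; norm_num) _).2 (by
      have h1 := congrArg (fun M : Matrix (Fin 3) (Fin 3) H4 => M.map (rho hF))
        (unitary_swp i.1 i.2.1 i.2.2)
      have hmul : ∀ A B : Matrix (Fin 3) (Fin 3) H4,
          (A * B).map (rho hF) = A.map (rho hF) * B.map (rho hF) := fun A B =>
        Matrix.map_mul (f := (rho hF).toRingHom)
      simp only [hmul] at h1
      have h2 : ((swp i.1 i.2.1).map (· ^ 2)).map (rho hF) =
          ((swp i.1 i.2.1).map (rho hF)).map (· ^ 2) := by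
        ext a b
        simp
      rw [h2] at h1
      rw [← Matrix.transpose_map, h1]
      simp))

theorem inv9_coe (hF : Fintype.card F = 4) (i : Fin 3 × {x : H4 // x ≠ 0}) :
    (inv9 hF i).1.1 = (swp i.1 i.2.1).map (rho hF) := rfl

theorem inv9_sq (hF : Fintype.card F = 4) (i : Fin 3 × {x : H4 // x ≠ 0}) :
    inv9 hF i * inv9 hF i = 1 := by
  apply SU_ext
  rw [SU_mul_coe, inv9_coe]
  have hmul : ∀ A B : Matrix (Fin 3) (Fin 3) H4,
      (A * B).map (rho hF) = A.map (rho hF) * B.map (rho hF) := fun A B =>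
    Matrix.map_mul (f := (rho hF).toRingHom)
  rw [← hmul, sq_swp _ _ i.2.2]
  simp

theorem inv9_injective (hF : Fintype.card F = 4) : Function.Injective (inv9 (F := F) hF) := by
  intro i j hij
  have h1 : (inv9 hF i).1.1 = (inv9 hF j).1.1 := by rw [hij]
  rw [inv9_coe, inv9_coe] at h1
  have h2 := Matrix.map_injective (rho hF).injective h1
  obtain ⟨h3, h4⟩ := stage7 i.1 j.1 i.2.1 j.2.1 i.2.2 j.2.2 (fun a b => by rw [h2])
  exact Prod.ext h3 (Subtype.ext h4)

theorem inv9_ne_one (hF : Fintype.card F = 4) (i : Fin 3 × {x : H4 // x ≠ 0}) :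
    inv9 hF i ≠ 1 := by
  intro h
  have h1 : (inv9 hF i).1.1 = (1 : Matrix (Fin 3) (Fin 3) F) := by rw [h]; rfl
  rw [inv9_coe] at h1
  have h2 : (swp i.1 i.2.1).map (rho hF) = (1 : Matrix (Fin 3) (Fin 3) H4).map (rho hF) := by
    rw [h1]; simp
  have h3 := Matrix.map_injective (rho hF).injective h2
  exact stage8 i.1 i.2.1 i.2.2 (fun a b => by rw [h3]; exact Matrix.one_apply)

theorem center_pow_three (hF : Fintype.card F = 4) {z : ↥(Cfsg.SU 3 F 2)}
    (hz : z ∈ Subgroup.center ↥(Cfsg.SU 3 F 2)) : z ^ 3 = 1 := by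
  have hc : Nat.card (Subgroup.center ↥(Cfsg.SU 3 F 2)) = 3 := by
    rw [card_center_SU (q := 2) (by rw [hF]; norm_num) (by norm_num)]
    norm_num
  have := pow_card_eq_one' (x := (⟨z, hz⟩ : Subgroup.center ↥(Cfsg.SU 3 F 2)))
  rw [hc] at this
  exact congrArg Subtype.val this

theorem lift_invo (hF : Fintype.card F = 4) (w : Cfsg.PSU 3 F 2) (hw : w * w = 1) (hw1 : w ≠ 1) :
    ∃ a : ↥(Cfsg.SU 3 F 2), a * a = 1 ∧ a ≠ 1 ∧ (QuotientGroup.mk a : Cfsg.PSU 3 F 2) = w := by
  obtain ⟨g, rfl⟩ := QuotientGroup.mk_surjective w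
  have hg : g * g ∈ Subgroup.center ↥(Cfsg.SU 3 F 2) := by
    rw [← QuotientGroup.eq_one_iff]; exact hw
  have h3 : (QuotientGroup.mk (g ^ 3) : Cfsg.PSU 3 F 2) = QuotientGroup.mk g := by
    rw [QuotientGroup.mk_pow, pow_succ, pow_two, hw, one_mul]
  refine ⟨g ^ 3, ?_, ?_, h3⟩
  · have : g ^ 3 * g ^ 3 = (g * g) ^ 3 := by
      rw [← pow_two, ← pow_two, ← pow_mul, ← pow_mul]
    rw [this, center_pow_three hF hg]
  · intro h
    apply hw1
    rw [← h3, h]; rfl

omit [Fintype F] in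
theorem pow_three_eq_zero (N : Matrix (Fin 3) (Fin 3) F) (h : IsNilpotent N) : N ^ 3 = 0 := by
  have h1 := Matrix.isNilpotent_charpoly_sub_pow_of_isNilpotent h
  have h2 : N.charpoly - Polynomial.X ^ 3 = 0 := by simpa using h1.eq_zero
  have h3 := Matrix.aeval_self_charpoly N
  rw [sub_eq_zero.1 h2] at h3
  simpa using h3

theorem charTwo (hF : Fintype.card F = 4) : CharP F 2 := by
  have h2 : (2 : F) = 0 := by
    have : (2 : H4) = 0 := by decide
    have h := congrArg (rho hF) this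
    rwa [map_ofNat, map_zero] at h
  exact CharTwo.of_one_ne_zero_of_two_eq_zero one_ne_zero h2

theorem pow_four_mat (hF : Fintype.card F = 4) (Y : Matrix (Fin 3) (Fin 3) F) (hY : Y ^ 8 = 1) :
    Y ^ 4 = 1 := by
  have := charTwo hF
  have : Fact (Nat.Prime 2) := ⟨Nat.prime_two⟩
  have hcomm : Commute Y 1 := Commute.one_right Y
  have h8 : (Y - 1) ^ 2 ^ 3 = Y ^ 2 ^ 3 - 1 ^ 2 ^ 3 := sub_pow_char_pow_of_commute 2 3 hcomm
  have h4 : (Y - 1) ^ 2 ^ 2 = Y ^ 2 ^ 2 - 1 ^ 2 ^ 2 := sub_pow_char_pow_of_commute 2 2 hcomm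
  norm_num at h8 h4
  rw [hY, sub_self] at h8
  have h3 := pow_three_eq_zero (Y - 1) ⟨8, h8⟩
  rw [pow_succ, h3, zero_mul] at h4
  exact (sub_eq_zero.1 h4.symm)

theorem pow_four_SU (hF : Fintype.card F = 4) (y : ↥(Cfsg.SU 3 F 2)) (hy : y ^ 8 = 1) :
    y ^ 4 = 1 := by
  have hpow : ∀ (a : ↥(Cfsg.SU 3 F 2)) (k : ℕ), (a ^ k).1.1 = a.1.1 ^ k := by
    intro a k
    induction k with
    | zero => rfl
    | succ k ih => rw [pow_succ, pow_succ, SU_mul_coe, ih]
  apply SU_ext
  rw [hpow]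
  have h1 : y.1.1 ^ 8 = 1 := by rw [← hpow, hy]; rfl
  rw [pow_four_mat hF _ h1]
  rfl

/-- `PSU_3(2)` satisfies the abstract hypotheses. -/
theorem hyp (hF : Fintype.card F = 4) : Hyp (Cfsg.PSU 3 F 2) where
  card := (Cfsg.Agent.S0282.result hF).1
  br := by
    intro a b ha ha1 hb hb1
    obtain ⟨a', ha', ha1', rfl⟩ := lift_invo hF a ha ha1
    obtain ⟨b', hb', hb1', rfl⟩ := lift_invo hF b hb hb1
    rw [← QuotientGroup.mk_mul, ← QuotientGroup.mk_mul, ← QuotientGroup.mk_mul,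
      ← QuotientGroup.mk_mul, braidSU hF ha' hb' ha1' hb1']
  nine := by
    have hne : ∀ i, (QuotientGroup.mk (inv9 hF i) : Cfsg.PSU 3 F 2) ≠ 1 := by
      intro i h
      rw [QuotientGroup.eq_one_iff] at h
      have h3 := center_pow_three hF h
      rw [pow_succ, pow_two, inv9_sq, one_mul] at h3
      exact inv9_ne_one hF i h3
    let f : Fin 3 × {x : H4 // x ≠ 0} → {x : Cfsg.PSU 3 F 2 // x * x = 1 ∧ x ≠ 1} := fun i =>
      ⟨QuotientGroup.mk (inv9 hF i), by rw [← QuotientGroup.mk_mul, inv9_sq]; rfl, hne i⟩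
    have hf : Function.Injective f := by
      intro i j hij
      have h1 : (QuotientGroup.mk (inv9 hF i) : Cfsg.PSU 3 F 2) = QuotientGroup.mk (inv9 hF j) :=
        congrArg Subtype.val hij
      rw [QuotientGroup.eq] at h1
      have hi : (inv9 hF i)⁻¹ = inv9 hF i := inv_eq_of_mul_eq_one_left (inv9_sq hF i)
      rw [hi] at h1
      have h3 := center_pow_three hF h1
      have hc := Subgroup.mem_center_iff.1 h1
      have h2 : (inv9 hF i * inv9 hF j) ^ 2 = 1 := by
        have e1 := hc (inv9 hF i)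
        calc (inv9 hF i * inv9 hF j) ^ 2
            = (inv9 hF i * inv9 hF j * inv9 hF i) * inv9 hF j := by
              rw [pow_two]; simp only [mul_assoc]
          _ = (inv9 hF i * (inv9 hF i * inv9 hF j)) * inv9 hF j := by rw [← e1]
          _ = (inv9 hF i * inv9 hF i) * (inv9 hF j * inv9 hF j) := by simp only [mul_assoc]
          _ = 1 := by rw [inv9_sq, inv9_sq, one_mul]
      rw [pow_succ, h2, one_mul] at h3
      apply inv9_injective hF
      calc inv9 hF i = inv9 hF i * (inv9 hF j * inv9 hF j) := by rw [inv9_sq, mul_one]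
        _ = (inv9 hF i * inv9 hF j) * inv9 hF j := by rw [mul_assoc]
        _ = inv9 hF j := by rw [h3, one_mul]
    have : Finite (Cfsg.PSU 3 F 2) :=
      Nat.finite_of_card_ne_zero (by rw [(Cfsg.Agent.S0282.result hF).1]; norm_num)
    have h9 : Nat.card (Fin 3 × {x : H4 // x ≠ 0}) = 9 := by
      rw [Nat.card_eq_fintype_card]; rfl
    rw [← h9]
    exact Nat.card_le_card_of_injective f hf
  exp := by
    intro w hw
    obtain ⟨g, rfl⟩ := QuotientGroup.mk_surjective w
    have hg : g ^ 8 ∈ Subgroup.center ↥(Cfsg.SU 3 F 2) := by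
      rw [← QuotientGroup.eq_one_iff, QuotientGroup.mk_pow]; exact hw
    have h1 : (g ^ 3) ^ 8 = 1 := by
      rw [← pow_mul, mul_comm, pow_mul, center_pow_three hF hg]
    have h2 := pow_four_SU hF _ h1
    have h3 : (QuotientGroup.mk g : Cfsg.PSU 3 F 2) ^ 12 = 1 := by
      rw [← QuotientGroup.mk_pow, show 12 = 3 * 4 from rfl, pow_mul, h2]; rfl
    rw [show 12 = 8 + 4 from rfl, pow_add, hw, one_mul] at h3
    exact h3

end concrete

end Cfsg.Agent.Lib.Helper89.PSU32
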